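import Cfsg.Agent.QdFree.GroupControl
import Cfsg.Agent.ZJ.Involves
import Cfsg.Agent.ZJ.Glauberman
import Cfsg.Prelude.Def_FusionComponents

/-!
The fusion system of a `Qd(p)`-free group is solvable, `p` odd.
-/

set_option autoImplicit false
set_option linter.style.haveILetI false

open Cfsg

namespace CfsgLib.QdFree

open Cfsg.FusionSystem CfsgLib.Fusion

universe u

variable {G : Type u} [Group G] [Finite G] {p : ℕ} [Fact p.Prime]

theorem isSolvableSystem_group (hp2 : p ≠ 2) (hqd : ¬ Cfsg.Involves ↥(Cfsg.qd p) G) (P : Sylow p G) :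
    (groupFusionSystem (P : Subgroup G)).IsSolvableSystem := by
  intro R hR hRS _ E hE
  obtain ⟨hRP, hθ, -, hmor⟩ := hE
  set N := Subgroup.normalizer (R : Set G) with hN
  have hPN : (P : Subgroup G) ≤ N := (Subgroup.normal_subgroupOf_iff_le_normalizer hRP).1 inferInstance
  haveI hRn : (R.subgroupOf N).Normal := Subgroup.normal_in_normalizer
  set π := QuotientGroup.mk' (R.subgroupOf N) with hπ
  set θ := QuotientGroup.mk' (R.subgroupOf (P : Subgroup G)) with hθdef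
  let j : ((P : Subgroup G) ⧸ R.subgroupOf (P : Subgroup G)) →* N ⧸ R.subgroupOf N :=
    QuotientGroup.map _ _ (Subgroup.inclusion hPN) fun x hx => hx
  have hjθ : ∀ x : (P : Subgroup G), j (θ x) = π (Subgroup.inclusion hPN x) := fun x => rfl
  have hj : Function.Injective j := by
    refine (injective_iff_map_eq_one j).2 fun y hy => ?_
    obtain ⟨x, rfl⟩ := QuotientGroup.mk'_surjective _ y
    rw [hjθ] at hy
    exact (QuotientGroup.eq_one_iff x).2 ((QuotientGroup.eq_one_iff _).1 hy : Subgroup.inclusion hPN x ∈ R.subgroupOf N)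
  let T : Sylow p (N ⧸ R.subgroupOf N) := (P.subtype hPN).mapSurjective (QuotientGroup.mk'_surjective _)
  have hT : (T : Subgroup (N ⧸ R.subgroupOf N)) = j.range := by
    ext y
    constructor
    · rintro ⟨x, hx, rfl⟩
      exact ⟨θ ⟨x, hx⟩, rfl⟩
    · rintro ⟨z, rfl⟩
      obtain ⟨x, rfl⟩ := QuotientGroup.mk'_surjective _ z
      exact ⟨Subgroup.inclusion hPN x, x.2, rfl⟩
  have hqdN : ¬ Cfsg.Involves ↥(Cfsg.qd p) (N ⧸ R.subgroupOf N) := fun h =>
    hqd (ZJ.involves_subgroup N (ZJ.involves_quotient _ h))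
  set W' := ZJ.W p false (T : Subgroup (N ⧸ R.subgroupOf N)) with hW'
  set Wq := W'.comap j with hWq
  have hWmap : Wq.map j = W' := Subgroup.map_comap_eq_self ((ZJ.W_le _).trans hT.le)
  -- `Wq` is normal in the factor system
  have hnorm : E.IsNormal Wq := by
    refine ⟨le_top, fun P' φ' hφ' => ?_⟩
    obtain ⟨-, φ, ⟨hpre, hφS, g, hg⟩, hP₁, hφ₁, hP₂, hind⟩ := (hmor P' φ').1 hφ'
    have hRpre : R ≤ preimageAlong θ P' := fun r hr =>
      ⟨⟨r, hRP hr⟩, show θ ⟨r, hRP hr⟩ ∈ P' by rw [(hθ ⟨r, hRP hr⟩).2 hr]; exact P'.one_mem, rfl⟩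
    have hgN : g ∈ N := by
      rw [hN, Subgroup.mem_normalizer_iff_map_conj_eq]
      refine Subgroup.eq_of_le_of_card_ge ?_ (le_of_eq ?_)
      · rintro _ ⟨r, hr, rfl⟩
        have h := hR.2 R le_rfl _ (restrict (⟨hpre, hφS, g, hg⟩ :
          φ ∈ (groupFusionSystem (P : Subgroup G)).Hom (preimageAlong θ P')) hRpre) ⟨r, hr⟩
        rw [MonoidHom.comp_apply, hg] at h
        exact h
      · exact (Subgroup.card_map_of_injective (MulAut.conj g).injective).symm
    set gb := π ⟨g, hgN⟩ with hgb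
    have hA : ∀ (y) (hy : y ∈ P'), gb * j y * gb⁻¹ = j (φ' ⟨y, hy⟩) := by
      intro y hy
      obtain ⟨x, rfl⟩ := QuotientGroup.mk'_surjective _ y
      have hx : (x : G) ∈ preimageAlong θ P' := ⟨x, hy, rfl⟩
      have h := hind ⟨x, hx⟩
      rw [show (⟨θ ⟨((⟨(x : G), hx⟩ : ↥(preimageAlong θ P')) : G), hP₁ hx⟩, hP₂ ⟨x, hx⟩⟩ : P') = ⟨θ x, hy⟩ from
        Subtype.ext rfl] at h
      show gb * j (θ x) * gb⁻¹ = j (φ' ⟨θ x, hy⟩)
      rw [h, hjθ, hjθ, hgb, ← map_mul, ← map_inv, ← map_mul]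
      refine congrArg π (Subtype.ext ?_)
      exact (hg ⟨(x : G), hx⟩).symm
    obtain ⟨-, hctl⟩ := controlsStrongFusionOf_W_of_qdFree (el := false) hp2 T hqdN
      (D := (T : Subgroup (N ⧸ R.subgroupOf N))) ⟨le_rfl, fun _ _ _ h => h⟩ (j '' (P' : Set _))
      (by rintro _ ⟨y, -, rfl⟩; exact hT.ge ⟨y, rfl⟩)
    obtain ⟨n, hn, hnA⟩ := hctl gb (by
      rintro _ ⟨_, ⟨y, hy, rfl⟩, rfl⟩
      show gb * j y * gb⁻¹ ∈ _
      rw [hA y hy]
      exact hT.ge ⟨_, rfl⟩)
    have hrange : ∀ x : ↥(P' ⊔ Wq), n * j (x : _) * n⁻¹ ∈ j.range := by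
      intro x
      have hle : P' ⊔ Wq ≤ (j.range.comap (MulAut.conj n).toMonoidHom).comap j := sup_le
        (fun y hy => by
          show n * j y * n⁻¹ ∈ j.range
          rw [← hnA _ ⟨y, hy, rfl⟩, hA y hy]
          exact ⟨_, rfl⟩)
        (fun y hy => by
          show n * j y * n⁻¹ ∈ j.range
          exact (hW' ▸ (ZJ.W_le _).trans hT.le) ((Subgroup.mem_normalizer_iff.1 hn (j y)).1 hy))
      exact hle x.2
    let ψ : ↥(P' ⊔ Wq) →* ((P : Subgroup G) ⧸ R.subgroupOf (P : Subgroup G)) :=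
      (MonoidHom.ofInjective hj).symm.toMonoidHom.comp
        (((MulAut.conj n).toMonoidHom.comp (j.comp (P' ⊔ Wq).subtype)).codRestrict j.range hrange)
    have hψ : ∀ x, j (ψ x) = n * j (x : _) * n⁻¹ := fun x => by
      have h1 := congrArg Subtype.val ((MonoidHom.ofInjective hj).apply_symm_apply
        ((((MulAut.conj n).toMonoidHom.comp (j.comp (P' ⊔ Wq).subtype)).codRestrict j.range hrange) x))
      exact h1
    refine ⟨ψ, (hmor _ ψ).2 ⟨le_top, ?_⟩, fun x => hj ?_, ?_⟩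
    · obtain ⟨g', hg'⟩ := QuotientGroup.mk'_surjective (R.subgroupOf N) n
      have hsub : preimageAlong θ (P' ⊔ Wq) ≤ (P : Subgroup G) := by rintro _ ⟨x, -, rfl⟩; exact x.2
      have hconj : ∀ x : (P : Subgroup G), θ x ∈ P' ⊔ Wq → (g' : G) * x * (g' : G)⁻¹ ∈ (P : Subgroup G) := by
        intro x hx
        obtain ⟨z, hz⟩ := hrange ⟨θ x, hx⟩
        obtain ⟨s, rfl⟩ := QuotientGroup.mk'_surjective _ z
        have h1 : π (Subgroup.inclusion hPN s) = π (g' * Subgroup.inclusion hPN x * g'⁻¹) := by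
          rw [map_mul, map_mul, map_inv, hg', ← hjθ, ← hjθ]; exact hz
        have h2 : (s : G)⁻¹ * ((g' : G) * x * (g' : G)⁻¹) ∈ R :=
          ((QuotientGroup.eq (s := R.subgroupOf N)).1 h1 :
            (Subgroup.inclusion hPN s)⁻¹ * (g' * Subgroup.inclusion hPN x * g'⁻¹) ∈ R.subgroupOf N)
        simpa using mul_mem s.2 (hRP h2)
      refine ⟨conjHom _ (g' : G), ⟨hsub, ?_, g', fun _ => rfl⟩, hsub, ?_, ?_, ?_⟩
      · rintro ⟨_, x, hx, rfl⟩; exact hconj x hx
      · rintro ⟨_, x, hx, rfl⟩; exact hconj x hx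
      · rintro ⟨_, x, hx, rfl⟩; exact hx
      · rintro ⟨_, x, hx, rfl⟩
        refine hj ?_
        rw [hψ]
        show n * j (θ x) * n⁻¹ = j (θ ⟨(g' : G) * x * (g' : G)⁻¹, _⟩)
        rw [hjθ, hjθ, ← hg', ← map_mul, ← map_inv, ← map_mul]
        exact congrArg π (Subtype.ext rfl)
    · rw [hψ]
      show n * j (x : _) * n⁻¹ = _
      rw [← hnA _ ⟨x, x.2, rfl⟩, hA (x : _) x.2]
    · refine Subgroup.map_injective hj ?_
      rw [Subgroup.map_map, hWmap]
      ext y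
      constructor
      · rintro ⟨x, hx, rfl⟩
        show j (ψ x) ∈ W'
        rw [hψ]
        exact (Subgroup.mem_normalizer_iff.1 hn _).1 hx
      · intro hy
        have hy' : n⁻¹ * y * n ∈ W' := by
          have := (Subgroup.mem_normalizer_iff.1 (inv_mem hn) y).1 hy
          simpa using this
        obtain ⟨w, hw, hwy⟩ := hWmap.ge hy'
        refine ⟨⟨w, Subgroup.mem_sup_right hw⟩, hw, ?_⟩
        show j (ψ ⟨w, _⟩) = y
        rw [hψ]
        show n * j w * n⁻¹ = y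
        rw [hwy]; group
  -- and nontrivial
  intro hcore
  have hle : Wq ≤ E.core := le_sSup (show Wq ∈ {Q | E.IsNormal Q} from hnorm)
  rw [hcore, le_bot_iff] at hle
  have hW0 : W' = ⊥ := by rw [← hWmap, hle, Subgroup.map_bot]
  refine ZJ.W_ne_bot T.isPGroup' ?_ hW0
  intro hT0
  refine hRS (le_antisymm hRP fun s hs => ?_)
  have h1 : j (θ ⟨s, hs⟩) ∈ (⊥ : Subgroup (N ⧸ R.subgroupOf N)) := hT0 ▸ hT.ge ⟨_, rfl⟩
  exact (hθ ⟨s, hs⟩).1 ((injective_iff_map_eq_one j).1 hj _ (Subgroup.mem_bot.1 h1))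

end CfsgLib.QdFree
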